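import Groth.Agent.Etbc.H228.AcycIff
import Groth.Agent.EtpbcB.Big

/-!
# Basic permanence properties of `n`-acyclic morphisms

* `compN_of_isPullback`: `CompN (prj g V)` may be read off any cartesian square over `V → Y`.
* `isAcyclicN_of_isPullback_etale`: stability under étale base change.
* `isAcyclicN_iff_of_isPullback_isIso`, `isAcyclicN_iff_of_arrow`: invariance under isomorphisms of arrows.
* `isAcyclicN_of_etale_cover`: `n`-acyclicity is étale local on the base.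
* `isAcyclicN_of_openCover`: Zariski local on the base.
-/

set_option autoImplicit false
universe u
open CategoryTheory CategoryTheory.Limits AlgebraicGeometry Opposite

namespace Groth.Agent.Etbc.H228.AcycBasic

open Groth.Agent.Etbc.H228 Groth.Agent.Etbc.H228.Converse Groth.Agent.Etbc.H228.AcycIff

variable {X Y : Scheme.{u}} {g : X ⟶ Y} {L : Set ℕ} {n : ℕ}

/-- Two cartesian squares over the same morphism have the same comparison conditions. -/
theorem compN_of_isPullback {P P' V : Scheme.{u}} {v : V ⟶ Y} {p : P ⟶ V} {q : P ⟶ X} {p' : P' ⟶ V}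
    {q' : P' ⟶ X} (h : IsPullback p q v g) (h' : IsPullback p' q' v g) (H : EtAcyc.CompN p L n) :
    EtAcyc.CompN p' L n :=
  IsoComp.compN_of_iso_comp (e := (h'.isoIsPullback _ _ h).hom)
    (h'.isoIsPullback_hom_fst _ _ h) H

/-- An `n`-acyclic morphism satisfies `CompN` after every étale base change. -/
theorem compN_of_isAcyclicN (H : EtAcyc.IsAcyclicN g L n) {P V : Scheme.{u}} {v : V ⟶ Y} [Etale v]
    {p : P ⟶ V} {q : P ⟶ X} (h : IsPullback p q v g) : EtAcyc.CompN p L n :=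
  compN_of_isPullback (IsPullback.of_hasPullback v g) h (H (Scheme.Etale.mk v))

theorem isAcyclicN_iff_etale : EtAcyc.IsAcyclicN g L n ↔
    ∀ ⦃P V : Scheme.{u}⦄ (v : V ⟶ Y) [Etale v] (p : P ⟶ V) (q : P ⟶ X), IsPullback p q v g →
      EtAcyc.CompN p L n :=
  ⟨fun H _ _ _ _ _ _ h => compN_of_isAcyclicN H h, fun H V =>
    H V.hom _ _ (IsPullback.of_hasPullback V.hom g)⟩

/-- The comparison condition for `g` itself. -/
theorem compN_self (H : EtAcyc.IsAcyclicN g L n) : EtAcyc.CompN g L n :=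
  compN_of_isAcyclicN H (IsPullback.of_vert_isIso ⟨by rw [Category.comp_id, Category.id_comp]⟩ :
    IsPullback g (𝟙 X) (𝟙 Y) g)

/-- `n`-acyclicity is stable under étale base change. -/
theorem isAcyclicN_of_isPullback_etale {X₁ Y₁ : Scheme.{u}} {g₁ : X₁ ⟶ Y₁} {b' : X₁ ⟶ X} {b : Y₁ ⟶ Y}
    (h : IsPullback b' g₁ g b) [Etale b] (H : EtAcyc.IsAcyclicN g L n) :
    EtAcyc.IsAcyclicN g₁ L n := by
  rw [isAcyclicN_iff_etale] at H ⊢
  intro P V v _ p q hP
  exact H (v ≫ b) p (q ≫ b') (hP.paste_vert h.flip)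

/-- Invariance under isomorphism of arrows. -/
theorem isAcyclicN_of_arrow {X₁ Y₁ : Scheme.{u}} {g₁ : X₁ ⟶ Y₁} (e' : X₁ ⟶ X) (e : Y₁ ⟶ Y) [IsIso e']
    [IsIso e] (w : e' ≫ g = g₁ ≫ e) (H : EtAcyc.IsAcyclicN g L n) : EtAcyc.IsAcyclicN g₁ L n :=
  isAcyclicN_of_isPullback_etale (IsPullback.of_horiz_isIso ⟨w⟩) H

theorem isAcyclicN_iff_of_arrow {X₁ Y₁ : Scheme.{u}} {g₁ : X₁ ⟶ Y₁} (e' : X₁ ⟶ X) (e : Y₁ ⟶ Y)
    [IsIso e'] [IsIso e] (w : e' ≫ g = g₁ ≫ e) :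
    EtAcyc.IsAcyclicN g₁ L n ↔ EtAcyc.IsAcyclicN g L n := by
  refine ⟨fun H => isAcyclicN_of_arrow (inv e') (inv e) ?_ H, isAcyclicN_of_arrow e' e w⟩
  rw [IsIso.inv_comp_eq, ← Category.assoc, w, Category.assoc, IsIso.hom_inv_id, Category.comp_id]

/-- `n`-acyclicity is étale local on the base. -/
theorem isAcyclicN_of_etale_cover
    (H : ∀ y : Y, ∃ (X₁ Y₁ : Scheme.{u}) (g₁ : X₁ ⟶ Y₁) (b' : X₁ ⟶ X) (b : Y₁ ⟶ Y) (_ : Etale b),
      IsPullback b' g₁ g b ∧ y ∈ Set.range b ∧ EtAcyc.IsAcyclicN g₁ L n) :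
    EtAcyc.IsAcyclicN g L n := by
  rw [isAcyclicN_iff_form]
  intro V
  let B : V.left.Etale → Prop := fun W =>
    ∃ (X₁ Y₁ : Scheme.{u}) (g₁ : X₁ ⟶ Y₁) (b' : X₁ ⟶ X) (b : Y₁ ⟶ Y) (_ : Etale b),
      IsPullback b' g₁ g b ∧ EtAcyc.IsAcyclicN g₁ L n ∧ ∃ (c : W.left ⟶ Y₁), c ≫ b = W.hom ≫ V.hom
  have hB : Cofinal B := by
    intro W w
    obtain ⟨X₁, Y₁, g₁, b', b, hb, hp, ⟨y₁, hy₁⟩, hg₁⟩ := H ((W.hom ≫ V.hom) w)
    obtain ⟨z, hz, -⟩ := Scheme.Pullback.exists_preimage_pullback (f := W.hom ≫ V.hom) (g := b) w y₁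
      hy₁.symm
    refine ⟨Scheme.Etale.mk (pullback.fst (W.hom ≫ V.hom) b ≫ W.hom),
      EtpbcB.Big.etHom (pullback.fst (W.hom ≫ V.hom) b) rfl, z, hz, X₁, Y₁, g₁, b', b, hb, hp, hg₁,
      pullback.snd (W.hom ≫ V.hom) b, ?_⟩
    exact pullback.condition.symm.trans (Category.assoc _ _ _).symm
  refine form_of_compN_cofinal hB fun W hW => ?_
  obtain ⟨X₁, Y₁, g₁, b', b, hb, hp, hg₁, c, hc⟩ := hW
  have hc' : Etale (c ≫ b) := by rw [hc]; infer_instance
  have hce : Etale c := Etale.of_comp c b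
  -- the cartesian square over `W → Y₁`
  have h1 : IsPullback (pullback.fst c g₁) (pullback.snd c g₁ ≫ b') (c ≫ b) g :=
    (IsPullback.of_hasPullback c g₁).paste_vert hp.flip
  have h2 : IsPullback (pullback.fst W.hom (EtAcyc.prj g V))
      (pullback.snd W.hom (EtAcyc.prj g V) ≫ pullback.snd V.hom g) (W.hom ≫ V.hom) g :=
    (IsPullback.of_hasPullback W.hom (EtAcyc.prj g V)).paste_vert (IsPullback.of_hasPullback V.hom g)
  rw [← hc] at h2
  exact compN_of_isPullback h1 h2 (compN_of_isAcyclicN hg₁ (IsPullback.of_hasPullback c g₁))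

/-- `n`-acyclicity is Zariski local on the base. -/
theorem isAcyclicN_of_opens {ι : Type*} (U : ι → Y.Opens) (hU : ⨆ i, U i = ⊤)
    (H : ∀ i, EtAcyc.IsAcyclicN (g ∣_ (U i)) L n) : EtAcyc.IsAcyclicN g L n := by
  refine isAcyclicN_of_etale_cover fun y => ?_
  have hy : y ∈ (⨆ i, U i : Y.Opens) := by rw [hU]; trivial
  obtain ⟨i, hi⟩ := TopologicalSpace.Opens.mem_iSup.1 hy
  exact ⟨_, _, g ∣_ (U i), (g ⁻¹ᵁ (U i)).ι, (U i).ι, inferInstance,
    (isPullback_morphismRestrict g (U i)).flip, by simpa using hi, H i⟩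

end Groth.Agent.Etbc.H228.AcycBasic
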